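import Cfsg.Agent.Lib.FusionProduct.JStarBasic
import Cfsg.Agent.Lib.FusionProduct.Lift
import Cfsg.Agent.S5120

/-!
The `p`-residual of a normal subsystem is normal.
-/

set_option autoImplicit false
set_option linter.style.haveILetI false
set_option linter.unusedSectionVars false

namespace CfsgLib.FusionProduct

open Cfsg Cfsg.FusionSystem CfsgLib.Alperin CfsgLib.FusionSub CfsgLib.FusionBasics

universe u

variable {Ω : Type u} [Group Ω] {S T : Subgroup Ω}
  {F : FusionSystem S} {E : FusionSystem T} {p : ℕ} [Fact p.Prime] [Finite S]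

/-- The `p`-residual of a normal subsystem is normal. -/
theorem pResidual_isNormalIn (h : Setup F E p) {W : Subgroup Ω}
    (hW : E.hyperfocalSubgroup p = W) {E₁ : FusionSystem W}
    (hE₁s : E₁.IsSaturated p) (hE₁i : E₁.HasPPowerIndexIn E p) : E₁.IsNormalIn F p := by
  haveI := h.finT
  have hWT : W ≤ T := hW ▸ CfsgLib.FusionSub.hyperfocal_le E p
  have hWS : W ≤ S := hWT.trans h.le
  haveI := finite_of_le hWS
  have hWp := isPGroup_of_le h.isP hWS
  have hWn : (W.subgroupOf T).Normal :=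
    ⟨fun x hx s => by
      subst hW
      exact CfsgLib.FusionExamples.hyperfocal_conj_mem s.2 hx⟩
  have hE₁n : E₁.IsNormalIn E p :=
    Cfsg.Agent.S5120.result p h.isPT E h.esat W hWT hWn hW.le E₁ hE₁s hE₁i
  -- `W` is invariant under `Aut_F(T)`
  have hαW : ∀ α ∈ F.autGroup T, ∀ x : T, (x : Ω) ∈ W → ((α x : T) : Ω) ∈ W := by
    intro α hα
    suffices hle : E.hyperfocalSubgroup p ≤ ((W.comap (T.subtype.comp α.toMonoidHom))).map T.subtype by
      intro x hx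
      obtain ⟨y, hy, hyx⟩ := hle (hW.ge hx)
      rw [← show y = x from Subtype.ext hyx]
      exact hy
    refine (Subgroup.closure_le _).mpr ?_
    rintro _ ⟨P, β, x, hPT, hβ, rfl⟩
    let η : P →* Ω := (T.subtype.comp α.toMonoidHom).comp (Subgroup.inclusion hPT)
    have hη : η ∈ F.Hom P := restrict_mem ((mem_autGroup_iff F h.le).mp hα) hPT
    let M : Subgroup (E.autGroup P) :=
      { carrier := {b | ∀ x : P, (η x)⁻¹ * η ((b : MulAut P) x) ∈ W}
        one_mem' := fun x => by simp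
        mul_mem' := fun {b b'} hb hb' x => by
          have := W.mul_mem (hb' x) (hb ((b' : MulAut P) x))
          simpa [mul_assoc] using this
        inv_mem' := fun {b} hb x => by
          simpa using W.inv_mem (hb ((b : MulAut P)⁻¹ x)) }
    have hM : pResidual p (E.autGroup P) ≤ M := by
      refine (Subgroup.closure_le _).mpr fun b hb => ?_
      intro y
      set e := isoOfHom η (F.injective_of_mem hη) rfl
      have hb' : MulAut.congr e (b : MulAut P) ∈ E.autGroup η.range :=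
        h.aut_transport hPT hη rfl b.2 fun z hm => by
          rw [show (⟨η z, hm⟩ : η.range) = e z from Subtype.ext rfl, MulAut.congr_apply]
          simp only [MulEquiv.trans_apply, MulEquiv.symm_apply_apply]
          rfl
      have hηT : η.range ≤ T := by
        rintro _ ⟨z, rfl⟩
        exact (α _).2
      have := mem_hyperfocal E hηT (mem_map_pResidual_of_coprime E hb' (by
        rw [(MulAut.congr e).orderOf_eq, Subgroup.orderOf_coe]; exact hb)) (e y)
      rw [MulAut.congr_apply] at this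
      simp only [MulEquiv.trans_apply, MulEquiv.symm_apply_apply] at this
      exact hW.le this
    refine ⟨⟨_, T.mul_mem (T.inv_mem (hPT x.2)) (hPT ((β : MulAut P) x).2)⟩, ?_, rfl⟩
    show T.subtype.comp α.toMonoidHom
      ((⟨x, hPT x.2⟩ : T)⁻¹ * ⟨_, hPT ((β : MulAut P) x).2⟩) ∈ W
    rw [map_mul, map_inv]
    exact hM hβ x
  have hEW : E.StronglyClosed W := hE₁n.1.2.2.2.1
  -- `W` is strongly closed
  have hsc : F.StronglyClosed W := by
    refine ⟨hWS, fun P hP φ hφ x => ?_⟩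
    obtain ⟨α, hα, φ₀, hφ₀, hx⟩ := h.inv.2.2.2 P (hP.trans hWT) φ hφ
    rw [hx x (apply_mem hφ₀ x)]
    exact hαW α hα _ (stronglyClosed_apply hEW hφ₀ x (hP x.2))
  have hEF : E₁.IsSubsystemOf F := fun P φ hφ => h.sub P (hE₁i.1 P hφ)
  -- invariance
  have hinv : CfsgLib.Alperin.InvCond E₁ F := by
    have hcore : ∀ P : Subgroup Ω, E₁.Hom P ⊆ (invariantCore E₁ F).Hom P := by
      refine le_of_pPrime_le hWp hE₁s hE₁i.1 hWT _ fun P hP γ hγ hc => ?_
      refine (mem_autGroup_iff _ hP).mpr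
        ⟨(mem_autGroup_iff E₁ hP).mp (pPrime_mem_of_hasPPowerIndexIn hE₁i hP hγ hc), fun a ha => ?_⟩
      let η : P →* Ω := W.subtype.comp (a.toMonoidHom.comp (Subgroup.inclusion hP))
      have hη : η ∈ F.Hom P :=
        restrict_mem_apply ((mem_autGroup_iff F hWS).mp ha) hP fun x => rfl
      have hr : η.range = autImage a P := by
        ext y
        constructor
        · rintro ⟨x, rfl⟩
          exact mem_autImage _ x.2
        · rintro ⟨x, hx, rfl⟩
          exact ⟨⟨x, hx⟩, rfl⟩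
      set e := isoOfHom η (F.injective_of_mem hη) hr
      have hγ' : MulAut.congr e γ ∈ E.autGroup (autImage a P) :=
        h.aut_transport (hP.trans hWT) hη hr hγ fun z hm => by
          rw [show (⟨η z, hm⟩ : ↥(autImage a P)) = e z from Subtype.ext rfl, MulAut.congr_apply]
          simp only [MulEquiv.trans_apply, MulEquiv.symm_apply_apply]
          rfl
      have hmem := pPrime_mem_of_hasPPowerIndexIn hE₁i (autImage_le a P) hγ'
        (by rwa [(MulAut.congr e).orderOf_eq])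
      refine ⟨_, (mem_autGroup_iff E₁ (autImage_le a P)).mp hmem, fun x hxT hφx => ?_⟩
      show (((MulAut.congr e γ) (e x) : ↥(autImage a P)) : Ω) = _
      rw [MulAut.congr_apply]
      simp only [MulEquiv.trans_apply, MulEquiv.symm_apply_apply]
      rfl
    intro P hPT φ hφ α hα
    obtain ⟨χ, hχ, hχx⟩ := (hcore P hφ).2 α hα
    exact ⟨χ, hχ, fun x hφx _ => hχx x (hPT x.2) hφx⟩
  -- Frattini
  have hfrat : ∀ P : Subgroup Ω, P ≤ W → ∀ φ : P →* Ω, φ ∈ F.Hom P →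
      ∃ α ∈ F.autGroup W, ∃ φ₀ ∈ E₁.Hom P, ∀ (x : P) (hx : φ₀ x ∈ W),
        φ x = ((α ⟨φ₀ x, hx⟩ : W) : Ω) := by
    intro P hP φ hφ
    obtain ⟨α, hα, φ₀, hφ₀, hx⟩ := h.inv.2.2.2 P (hP.trans hWT) φ hφ
    obtain ⟨β, hβ, φ₁, hφ₁, hx₁⟩ := hE₁n.1.2.2.2.2.2 P hP φ₀ hφ₀
    obtain ⟨αW, hαW', hαWx⟩ := exists_aut_of_hom' F
      (restrict_mem ((mem_autGroup_iff F h.le).mp hα) hWT) (fun x => hαW α hα _ x.2)
    refine ⟨αW * β, mul_mem hαW' (autGroup_mono h.sub W hβ), φ₁, hφ₁, fun x hxW => ?_⟩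
    rw [hx x (apply_mem hφ₀ x), MulAut.mul_apply, hαWx]
    exact congrArg (fun v : T => ((α v : T) : Ω)) (Subtype.ext (hx₁ x hxW))
  refine ⟨⟨hE₁s, h.sat, hEF, hsc, hinv, hfrat⟩, fun α hα => ?_⟩
  -- extension condition
  set U : Subgroup Ω := W ⊔ centralizerIn S W with hU
  have hWU : W ≤ U := le_sup_left
  have hUS : U ≤ S := sup_le hWS (centralizerIn_le S W)
  haveI := finite_of_le hUS
  let Gd : MulAut W → MulAut U → Prop := fun a b =>
    (∀ x : W, ((b (Subgroup.inclusion hWU x) : U) : Ω) = ((a x : W) : Ω)) ∧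
      ∀ c : U, (c : Ω) ∈ centralizerIn S W →
        (c : Ω)⁻¹ * ((b c : U) : Ω) ∈ W ⊓ Subgroup.centralizer (W : Set Ω)
  have hC : ∀ (a : MulAut W) (b : MulAut U), Gd a b → ∀ c : U,
      (c : Ω) ∈ centralizerIn S W → ((b c : U) : Ω) ∈ centralizerIn S W := by
    intro a b hab c hc
    have h1 := hab.2 c hc
    have := Subgroup.mul_mem (centralizerIn S W) hc ⟨hWS h1.1, h1.2⟩
    rwa [mul_inv_cancel_left] at this
  let M₀ : Subgroup (MulAut W) :=
    { carrier := {a | ∃ b ∈ F.autGroup U, Gd a b}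
      one_mem' := ⟨1, Subgroup.one_mem _, fun x => rfl, fun c _ => by simp⟩
      mul_mem' := by
        rintro a₁ a₂ ⟨b₁, hb₁, hg₁⟩ ⟨b₂, hb₂, hg₂⟩
        refine ⟨b₁ * b₂, Subgroup.mul_mem _ hb₁ hb₂, fun x => ?_, fun c hc => ?_⟩
        · show ((b₁ (b₂ (Subgroup.inclusion hWU x)) : U) : Ω) = _
          rw [show b₂ (Subgroup.inclusion hWU x) = Subgroup.inclusion hWU (a₂ x) from
            Subtype.ext (hg₂.1 x)]
          exact hg₁.1 (a₂ x)
        · have h2 := hg₂.2 c hc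
          have h1 := hg₁.2 (b₂ c) (hC _ _ hg₂ c hc)
          have := Subgroup.mul_mem _ h2 h1
          show (c : Ω)⁻¹ * ((b₁ (b₂ c) : U) : Ω) ∈ _
          simpa [mul_assoc] using this
      inv_mem' := by
        rintro a ⟨b, hb, hg⟩
        refine ⟨b⁻¹, Subgroup.inv_mem _ hb, fun x => ?_, fun c hc => ?_⟩
        · have : b⁻¹ (Subgroup.inclusion hWU x) = Subgroup.inclusion hWU (a⁻¹ x) := by
            apply b.injective
            rw [MulAut.apply_inv_self]
            exact Subtype.ext (by rw [hg.1 (a⁻¹ x), MulAut.apply_inv_self]; rfl)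
          rw [this]
          rfl
        · have hc' : ((b⁻¹ c : U) : Ω) ∈ centralizerIn S W := by
            refine ⟨hUS (b⁻¹ c).2, fun t ht => ?_⟩
            have h1 : b (Subgroup.inclusion hWU ⟨t, ht⟩) * c =
                c * b (Subgroup.inclusion hWU ⟨t, ht⟩) :=
              Subtype.ext (hc.2 _ (by rw [hg.1]; exact (a _).2))
            have h2 := congrArg (fun w : U => ((b⁻¹ w : U) : Ω)) h1
            simp only [map_mul, MulAut.inv_apply_self] at h2
            exact h2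
          have h3 := hg.2 _ hc'
          rw [MulAut.apply_inv_self] at h3
          simpa using Subgroup.inv_mem _ h3 }
  suffices hM₀ : E₁.autGroup W ≤ M₀ from hM₀ hα
  refine autGroup_le_of_pPrime hWp hE₁s (isFullyNormalized_top E₁) (fun a ha => ?_) fun γ hγ hc => ?_
  · obtain ⟨t, ht, htx⟩ := mem_autInducedBy_iff.mp ha
    refine ⟨conjAut U t (Subgroup.le_normalizer (hWU ht)),
      autInducedBy_le_autGroup F hUS (conjAut_mem (hWS ht) _),
      fun x => (htx x).symm, fun c hc' => ?_⟩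
    have : t * (c : Ω) * t⁻¹ = c := by rw [hc'.2 t ht, mul_inv_cancel_right]
    simp [this]
  -- the subgroup `W C_T(W)`
  set R₀ : Subgroup Ω := W ⊔ centralizerIn T W with hR₀
  have hR₀T : R₀ ≤ T := sup_le hWT (centralizerIn_le T W)
  have hR₀S : R₀ ≤ S := hR₀T.trans h.le
  haveI := finite_of_le hR₀S
  have hWR₀ : W ≤ R₀ := le_sup_left
  have hself : ∀ φ : R₀ →* Ω, φ ∈ F.Hom R₀ → φ.range = R₀ := by
    intro φ hφ
    have hWimg : (φ.comp (Subgroup.inclusion hWR₀)).range = W := by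
      refine Subgroup.eq_of_le_of_card_ge ?_
        (card_range_eq (F.injective_of_mem (restrict_mem hφ hWR₀))).ge
      rintro _ ⟨x, rfl⟩
      exact stronglyClosed_apply hsc hφ _ x.2
    have hle : R₀ ≤ (R₀.comap φ).map R₀.subtype := by
      refine sup_le (fun y hy => ⟨⟨y, hWR₀ hy⟩, hWR₀ (hWimg.le ⟨⟨y, hy⟩, rfl⟩), rfl⟩)
        (fun y hy => ⟨⟨y, le_sup_right (a := W) hy⟩, le_sup_right (a := W)
          ⟨stronglyClosed_apply h.closed hφ _ hy.1, fun w hw => ?_⟩, rfl⟩)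
      obtain ⟨v, rfl⟩ := hWimg.ge hw
      show φ _ * φ _ = φ _ * φ _
      rw [← map_mul, ← map_mul]
      exact congrArg φ (Subtype.ext (hy.2 _ v.2))
    refine Subgroup.eq_of_le_of_card_ge ?_ (card_range_eq (F.injective_of_mem hφ)).ge
    rintro _ ⟨x, rfl⟩
    obtain ⟨y, hy, hyx⟩ := hle x.2
    rw [← show y = x from Subtype.ext hyx]
    exact hy
  have hR₀n : F.IsFullyNormalized R₀ := ⟨hR₀S, fun Q ⟨φ, hφ, hr⟩ => by
    rw [← hr, hself φ hφ]⟩
  have hR₀c : E.IsCentric R₀ := ⟨hR₀T, fun Q ⟨φ, hφ, hr⟩ => by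
    rw [← hr, hself φ (h.sub _ hφ)]
    exact le_trans (inf_le_inf_left T (Subgroup.centralizer_le hWR₀)) le_sup_right⟩
  have hSN : S ≤ normalizerIn S R₀ := fun s hs => ⟨hs, by
    refine Subgroup.mem_normalizer_iff.mpr fun y => ⟨fun hy => ?_, fun hy => ?_⟩
    · exact (hself _ (F.conj_mem hR₀S hs)).le ⟨⟨y, hy⟩, rfl⟩
    · obtain ⟨x, hx⟩ := (hself _ (F.conj_mem hR₀S hs)).ge hy
      rw [← mul_left_cancel (mul_right_cancel (hx : s * (x : Ω) * s⁻¹ = s * y * s⁻¹))]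
      exact x.2⟩
  obtain ⟨M⟩ := exists_model h hR₀c hR₀n
  haveI := M.fin
  have hEn := h.isFullyNormalized_sub hR₀T hR₀n
  obtain ⟨b₀, hb₀, hb₀W, hb₀C⟩ := hE₁n.2 γ hγ
  obtain ⟨j, hj, hjρ⟩ := M.exists_jStar_rho h hR₀c hEn
    (fun b hb => exists_mem_J h R₀ hR₀c hR₀n M b hb) b₀ hb₀
  have hWN : W ≤ normalizerIn S R₀ := hWS.trans hSN
  have hUN : U ≤ normalizerIn S R₀ := hUS.trans hSN
  have hR₀N : R₀ ≤ normalizerIn S R₀ := hR₀S.trans hSN
  -- `K`
  let K : Subgroup M.L :=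
    { carrier := {c | c ∈ M.jStar h hR₀c ∧ ∀ x : R₀, (x : Ω) ∈ W → M.ρ c x = x}
      one_mem' := ⟨Subgroup.one_mem _, fun x _ => by rw [map_one]; rfl⟩
      mul_mem' := fun {c d} hc hd => ⟨Subgroup.mul_mem _ hc.1 hd.1, fun x hx => by
        rw [map_mul, MulAut.mul_apply, hd.2 x hx, hc.2 x hx]⟩
      inv_mem' := fun {c} hc => ⟨Subgroup.inv_mem _ hc.1, fun x hx => by
        conv_lhs => rw [← hc.2 x hx]
        rw [map_inv, MulAut.inv_apply_self]⟩ }
  have hnW : ∀ (m : ↥(normalizerIn S R₀)) (x : R₀), (x : Ω) ∈ W →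
      ((M.ρ (M.ι m) x : R₀) : Ω) ∈ W := fun m x hx => by
    rw [M.rho]
    exact stronglyClosed_conj hsc m.2.1 hx
  have hKn : ∀ (m : ↥(normalizerIn S R₀)) {c : M.L}, c ∈ K →
      M.ι m * c * (M.ι m)⁻¹ ∈ K := fun m {c} hc => by
    refine ⟨M.conj_mem_jStar h hR₀c m hc.1, fun x hx => ?_⟩
    have hm : (((M.ρ (M.ι m))⁻¹ x : R₀) : Ω) ∈ W := by
      rw [← map_inv, ← map_inv]
      exact hnW m⁻¹ x hx
    rw [map_mul, map_mul, map_inv, MulAut.mul_apply, MulAut.mul_apply, hc.2 _ hm,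
      MulAut.apply_inv_self]
  have hKp : IsPGroup p K := by
    rintro ⟨c, hcJ, hcW⟩
    haveI := finite_autGroup E hR₀T
    have hcE : M.ρ c ∈ E.autGroup R₀ := (M.jStar_le h hR₀c hcJ).1
    obtain ⟨k, m, hkm, hm⟩ :=
      CfsgLib.FusionExamples.exists_coprime_power (p := p) (⟨M.ρ c, hcE⟩ : E.autGroup R₀)
    have h1 := CfsgLib.FusionExamples.eq_one_of_fixes_hyperfocal h.isPT hR₀T hkm hm fun x hx => by
      replace hx := hW.le hx
      have : ∀ i : ℕ, (M.ρ c ^ i) x = x := fun i => by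
        induction i with
        | zero => rfl
        | succ i ih => rw [pow_succ', MulAut.mul_apply, ih, hcW x hx]
      exact this _
    have h2 : M.ρ (c ^ p ^ k) = 1 := by
      rw [map_pow]
      exact congrArg Subtype.val h1
    obtain ⟨k', hk'⟩ := M.exists_pow_of_ker h hR₀c
      (M.jStar_le h hR₀c (Subgroup.pow_mem _ hcJ _)) h2
    exact ⟨k + k', Subtype.ext (by
      show c ^ p ^ (k + k') = 1
      rw [pow_add, pow_mul, hk'])⟩
  have hKr : K ≤ M.ι.range := by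
    haveI : Finite (normalizerIn S R₀) := finite_of_le (normalizerIn_le S R₀)
    have hnorm : M.ι.range ≤ Subgroup.normalizer (K : Set M.L) := by
      rintro _ ⟨m, rfl⟩
      refine Subgroup.mem_normalizer_iff.mpr fun x => ⟨fun hx => hKn m hx, fun hx => ?_⟩
      have := hKn m⁻¹ hx
      rw [map_inv] at this
      simpa [mul_assoc] using this
    have hrp : IsPGroup p M.ι.range :=
      (isPGroup_of_le h.isP (normalizerIn_le S R₀)).of_surjective M.ι.rangeRestrict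
        M.ι.rangeRestrict_surjective
    obtain ⟨g, hg⟩ := M.sylow _ (hrp.to_sup_of_normal_right' hKp hnorm)
    have heq : M.ι.range = M.ι.range ⊔ K := by
      refine Subgroup.eq_of_le_of_card_ge le_sup_left ?_
      exact Nat.card_le_card_of_injective
        (fun x => (⟨g * (x : M.L) * g⁻¹, hg x x.2⟩ : M.ι.range))
        fun a b hab => Subtype.ext (mul_left_cancel (mul_right_cancel (congrArg Subtype.val hab)))
    exact le_sup_right.trans heq.ge
  have hjW : ∀ (x : R₀) (hx : (x : Ω) ∈ W), ((M.ρ j x : R₀) : Ω) = ((γ ⟨x, hx⟩ : W) : Ω) := by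
    intro x hx
    rw [hjρ]
    exact hb₀W ⟨x, hx⟩
  have hjW' : ∀ x : R₀, (x : Ω) ∈ W → (((M.ρ j)⁻¹ x : R₀) : Ω) ∈ W := fun x hx => by
    obtain ⟨w, hw⟩ := γ.surjective ⟨x, hx⟩
    have : (M.ρ j) (Subgroup.inclusion hWR₀ w) = x := Subtype.ext
      ((hjW _ w.2).trans (congrArg (fun v : W => (v : Ω)) hw))
    rw [← this, MulAut.inv_apply_self]
    exact w.2
  -- conjugation by `j` on `W C_S(W)`
  have hfixρ : ∀ {m : ↥(normalizerIn S R₀)}, (m : Ω) ∈ Subgroup.centralizer (W : Set Ω) →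
      ∀ x : R₀, (x : Ω) ∈ W → M.ρ (M.ι m) x = x := fun {m} hm x hx => by
    refine Subtype.ext ((M.rho m x).trans ?_)
    rw [← hm _ hx, mul_inv_cancel_right]
  have hCS : ∀ x (hx : x ∈ centralizerIn S W), ∃ m : ↥(normalizerIn S R₀),
      (m : Ω) ∈ centralizerIn S W ∧ x⁻¹ * (m : Ω) ∈ T ∧
        j * M.ι ⟨x, hSN hx.1⟩ * j⁻¹ = M.ι m := by
    intro x hx
    set n : ↥(normalizerIn S R₀) := ⟨x, hSN hx.1⟩
    have hd : j * M.ι n * j⁻¹ * (M.ι n)⁻¹ ∈ K := by
      refine ⟨?_, fun y hy => ?_⟩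
      · rw [show j * M.ι n * j⁻¹ * (M.ι n)⁻¹ = j * (M.ι n * j⁻¹ * (M.ι n)⁻¹) by group]
        exact Subgroup.mul_mem _ hj (M.conj_mem_jStar h hR₀c n (Subgroup.inv_mem _ hj))
      · have h1 : (M.ρ (M.ι n))⁻¹ y = y := by
          conv_lhs => rw [← hfixρ (m := n) hx.2 y hy]
          rw [MulAut.inv_apply_self]
        simp only [map_mul, map_inv, MulAut.mul_apply]
        rw [h1, hfixρ (m := n) hx.2 _ (hjW' y hy), MulAut.apply_inv_self]
    obtain ⟨d, hd'⟩ := hKr hd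
    have hdT : (d : Ω) ∈ T := M.mem_T_of_mem_jStar h hR₀c hEn (hd' ▸ hd.1)
    have hdC : (d : Ω) ∈ Subgroup.centralizer (W : Set Ω) := fun w hw => by
      have h1 := congrArg (fun v : R₀ => (v : Ω)) (hd.2 ⟨w, hWR₀ hw⟩ hw)
      rw [← hd'] at h1
      simp only [M.rho] at h1
      exact (mul_inv_eq_iff_eq_mul.mp h1).symm
    refine ⟨d * n, ⟨S.mul_mem d.2.1 hx.1, Subgroup.mul_mem _ hdC hx.2⟩, ?_, ?_⟩
    · show x⁻¹ * ((d : Ω) * x) ∈ T
      rw [← mul_assoc]
      exact h.conj_mem' hx.1 hdT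
    · rw [map_mul, hd']
      group
  have hWconj : ∀ w : W, j * M.ι ⟨w, hWN w.2⟩ * j⁻¹ = M.ι ⟨(γ w : W), hWN (γ w).2⟩ := fun w => by
    refine (M.conj j (Subgroup.inclusion hWR₀ w) (hWN w.2) (hR₀N (M.ρ j _).2)).trans
      (congrArg M.ι (Subtype.ext ?_))
    exact hjW _ w.2
  have hφex : ∀ u : U, ∃ m : ↥(normalizerIn S R₀), (m : Ω) ∈ U ∧
      j * M.ι ⟨u, hUN u.2⟩ * j⁻¹ = M.ι m := by
    intro u
    have hle : U ≤ (((U.subgroupOf (normalizerIn S R₀)).map M.ι).comap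
        ((MulAut.conj j).toMonoidHom.comp M.ι)).map (normalizerIn S R₀).subtype := by
      refine sup_le (fun w hw => ⟨⟨w, hWN hw⟩,
        ⟨⟨(γ ⟨w, hw⟩ : W), hWN (γ _).2⟩, hWU (γ _).2, (hWconj ⟨w, hw⟩).symm⟩, rfl⟩)
        (fun x hx => ⟨⟨x, hSN hx.1⟩, ?_, rfl⟩)
      obtain ⟨m, hm, -, he⟩ := hCS x hx
      exact ⟨m, le_sup_right (a := W) hm, he.symm⟩
    obtain ⟨n, ⟨m, hm, hmn⟩, hn⟩ := hle u.2
    refine ⟨m, hm, ?_⟩
    rw [show (⟨(u : Ω), hUN u.2⟩ : ↥(normalizerIn S R₀)) = n from Subtype.ext hn.symm]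
    exact hmn.symm
  choose f hfU hf using hφex
  let φ : U →* Ω := MonoidHom.mk' (fun u => (f u : Ω)) fun u v => by
    refine congrArg (fun x : ↥(normalizerIn S R₀) => (x : Ω)) (M.inj (a₂ := f u * f v) ?_)
    rw [map_mul, ← hf, ← hf, ← hf, show (⟨((u * v : U) : Ω), hUN (u * v).2⟩ :
      ↥(normalizerIn S R₀)) = ⟨u, hUN u.2⟩ * ⟨v, hUN v.2⟩ from rfl, map_mul]
    group
  have hφF : φ ∈ F.Hom U := M.hom j U hUN φ fun u => ⟨(f u).2, hf u⟩
  obtain ⟨b, hb, hbx⟩ := exists_aut_of_hom' F hφF hfU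
  have hbW : ∀ w : W, ((b (Subgroup.inclusion hWU w) : U) : Ω) = (γ w : W) := fun w =>
    (hbx _).trans (congrArg (fun x : ↥(normalizerIn S R₀) => (x : Ω))
      (M.inj (a₁ := f (Subgroup.inclusion hWU w)) (a₂ := ⟨(γ w : W), hWN (γ w).2⟩)
      ((hf (Subgroup.inclusion hWU w)).symm.trans (hWconj w))))
  have hbC : ∀ u : U, (u : Ω) ∈ centralizerIn S W →
      ((b u : U) : Ω) ∈ centralizerIn S W ∧ (u : Ω)⁻¹ * ((b u : U) : Ω) ∈ T := fun u hu => by
    obtain ⟨m, hm, hmT, he⟩ := hCS u hu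
    rw [hbx, show φ u = m from congrArg (fun x : ↥(normalizerIn S R₀) => (x : Ω))
      (M.inj ((hf u).symm.trans he))]
    exact ⟨hm, hmT⟩
  have hbZ : ∀ u : U, (u : Ω) ∈ centralizerIn T W →
      (u : Ω)⁻¹ * ((b u : U) : Ω) ∈ W ⊓ Subgroup.centralizer (W : Set Ω) := fun u hu => by
    have huR : (u : Ω) ∈ R₀ := le_sup_right (a := W) hu
    have h1 : φ u = ((M.ρ j ⟨u, huR⟩ : R₀) : Ω) :=
      congrArg (fun x : ↥(normalizerIn S R₀) => (x : Ω)) (M.inj ((hf u).symm.trans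
        (M.conj j ⟨u, huR⟩ (hR₀N huR) (hR₀N (M.ρ j _).2))))
    rw [hbx, h1, hjρ]
    exact hb₀C ⟨u, huR⟩ hu
  -- powers
  have hbpow : ∀ i : ℕ,
      (∀ w : W, (((b ^ i) (Subgroup.inclusion hWU w) : U) : Ω) = ((γ ^ i) w : W)) ∧
      (∀ u : U, (u : Ω) ∈ centralizerIn S W →
        (((b ^ i) u : U) : Ω) ∈ centralizerIn S W ∧ (u : Ω)⁻¹ * (((b ^ i) u : U) : Ω) ∈ T) ∧
      (∀ u : U, (u : Ω) ∈ centralizerIn T W →
        (u : Ω)⁻¹ * (((b ^ i) u : U) : Ω) ∈ W ⊓ Subgroup.centralizer (W : Set Ω)) := by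
    intro i
    induction i with
    | zero => exact ⟨fun w => rfl, fun u hu => ⟨hu, by simp⟩, fun u hu => by simp⟩
    | succ i ih =>
      refine ⟨fun w => ?_, fun u hu => ?_, fun u hu => ?_⟩
      · rw [pow_succ', pow_succ', MulAut.mul_apply, MulAut.mul_apply,
          show (b ^ i) (Subgroup.inclusion hWU w) = Subgroup.inclusion hWU ((γ ^ i) w) from
            Subtype.ext (ih.1 w), hbW]
      · obtain ⟨h1, h2⟩ := ih.2.1 u hu
        obtain ⟨h3, h4⟩ := hbC _ h1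
        rw [pow_succ', MulAut.mul_apply]
        refine ⟨h3, ?_⟩
        have := T.mul_mem h2 h4
        simpa [mul_assoc] using this
      · obtain ⟨h1, -⟩ := ih.2.1 u ⟨h.le hu.1, hu.2⟩
        have h2 := ih.2.2 u hu
        have h5 : (((b ^ i) u : U) : Ω) ∈ centralizerIn T W := by
          refine ⟨?_, h1.2⟩
          simpa using T.mul_mem hu.1 (hWT h2.1)
        have := Subgroup.mul_mem _ h2 (hbZ _ h5)
        rw [pow_succ', MulAut.mul_apply]
        simpa [mul_assoc] using this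
  haveI := finite_autGroup F hUS
  let b' : F.autGroup U := ⟨b, hb⟩
  obtain ⟨k, m, hkm, hm⟩ := CfsgLib.FusionExamples.exists_coprime_power (p := p) b'
  obtain ⟨i, hi⟩ := exists_pow_eq_self_of_coprime (x := γ) (n := p ^ k) (hc.symm.pow_left k)
  rw [← pow_mul] at hi
  set n := p ^ k * i with hn
  have hbm : (b ^ n) ^ m = 1 := by
    have h1 : (b' ^ n) ^ m = 1 := by
      rw [hn, pow_mul, ← pow_mul (b' ^ p ^ k), mul_comm, pow_mul, hkm, one_pow]
    simpa [b'] using congrArg (fun v : F.autGroup U => (v : MulAut U)) h1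
  have hco : (orderOf (b ^ n)).Coprime p :=
    Nat.Coprime.coprime_dvd_left (orderOf_dvd_of_pow_eq_one hbm) hm
  obtain ⟨hnW', hnC, hnZ⟩ := hbpow n
  refine ⟨b ^ n, Subgroup.pow_mem _ hb n, fun w => by rw [hnW', hi], fun u hu => ?_⟩
  -- coprime action on `C_S(W)`
  have hiff : ∀ x : U, x ∈ (centralizerIn S W).subgroupOf U ↔
      (b ^ n) x ∈ (centralizerIn S W).subgroupOf U := fun x => by
    refine ⟨fun hx => (hnC x hx).1, fun hx => ⟨hUS x.2, fun w hw => ?_⟩⟩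
    have h1 : (b ^ n) (Subgroup.inclusion hWU ⟨w, hw⟩) * (b ^ n) x =
        (b ^ n) x * (b ^ n) (Subgroup.inclusion hWU ⟨w, hw⟩) :=
      Subtype.ext (hx.2 _ (by rw [hnW']; exact ((γ ^ n) _).2))
    rw [← map_mul, ← map_mul] at h1
    exact congrArg (fun v : U => (v : Ω)) ((b ^ n).injective h1)
  set C := (centralizerIn S W).subgroupOf U with hCdef
  let bC : MulAut C := CfsgLib.FusionExamples.restrictAut (b ^ n) C hiff
  let Z : Subgroup C := ((W ⊓ Subgroup.centralizer (W : Set Ω)).subgroupOf U).subgroupOf C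
  haveI hZn : Z.Normal := by
    refine ⟨fun z hz g => ?_⟩
    show (((g : U) : Ω) * ((z : U) : Ω) * ((g : U) : Ω)⁻¹) ∈ W ⊓ Subgroup.centralizer (W : Set Ω)
    have hcomm : ((z : U) : Ω) * ((g : U) : Ω) = ((g : U) : Ω) * ((z : U) : Ω) :=
      (g.2 : ((g : U) : Ω) ∈ centralizerIn S W).2 _ hz.1
    rw [← hcomm, mul_inv_cancel_right]
    exact hz
  have hCp : IsPGroup p C := (isPGroup_of_le h.isP hUS).to_subgroup C
  have hpow : ∀ (i : ℕ) (x : C), ((bC ^ i) x : U) = ((b ^ n) ^ i) x := by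
    intro i
    induction i with
    | zero => intro x; rfl
    | succ i ih =>
      intro x
      rw [pow_succ', pow_succ', MulAut.mul_apply, MulAut.mul_apply, ← ih]
      rfl
  have hbCco : (orderOf bC).Coprime p := Nat.Coprime.coprime_dvd_left
    (orderOf_dvd_of_pow_eq_one (MulEquiv.ext fun x => Subtype.ext (by
      rw [hpow, pow_orderOf_eq_one]; rfl))) hco
  have hbZZ : ∀ z ∈ Z, bC z ∈ Z := fun z hz => by
    show (((b ^ n) (z : U) : U) : Ω) ∈ W ⊓ Subgroup.centralizer (W : Set Ω)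
    have hz' : ((z : U) : Ω) ∈ W ⊓ Subgroup.centralizer (W : Set Ω) := hz
    have h1 := Subgroup.mul_mem (W ⊓ Subgroup.centralizer (W : Set Ω)) hz' (hnZ (z : U) ⟨hWT hz.1, hz.2⟩)
    rwa [mul_inv_cancel_left] at h1
  refine inv_mul_mem_of_series hCp (M := Z) hbCco hbZZ (x := ⟨u, hu⟩) ?_
  obtain ⟨h1, h2⟩ := hnC u hu
  exact hnZ (u⁻¹ * (b ^ n) u) ⟨h2, Subgroup.mul_mem _ (Subgroup.inv_mem _ hu.2) h1.2⟩

end CfsgLib.FusionProduct
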