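import Cfsg.Agent.Lib.FusionProduct.Existence

/-!
Uniqueness of the product system.
-/

set_option autoImplicit false
set_option linter.style.haveILetI false
set_option linter.unusedSectionVars false

namespace CfsgLib.FusionProduct

open Cfsg Cfsg.FusionSystem CfsgLib.Alperin CfsgLib.FusionSub CfsgLib.FusionBasics
open scoped Pointwise

universe u

variable {Ω : Type u} [Group Ω] {S T : Subgroup Ω}
  {F : FusionSystem S} {E : FusionSystem T} {p : ℕ} [Fact p.Prime] [Finite S] {R : Subgroup Ω}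
  {D' : FusionSystem R}

set_option maxHeartbeats 1000000 in
/-- A centric member of a class meeting `T` in a subgroup with large centralizer has automorphisms
extending to larger sources. -/
theorem exists_extension_of_noncentric (c : Ctx F E p R) (hs : D'.IsSaturated p)
    (hsub : D'.IsSubsystemOf F) (hE : E.IsSubsystemOf D') {P : Subgroup Ω}
    (hPn : D'.IsFullyNormalized P) (hPc : D'.IsCentric P) (hnc : ¬ E.IsCentric (P ⊓ T))
    {α : MulAut P} (hα : α ∈ D'.autGroup P) :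
    ∃ (X : Subgroup Ω) (hPX : P ≤ X) (ψ : X →* Ω), ψ ∈ D'.Hom X ∧ Nat.card P < Nat.card X ∧
      ∀ x : P, ψ (Subgroup.inclusion hPX x) = ((α x : P) : Ω) := by
  haveI := c.finT
  haveI : Finite R := finite_of_le c.rs
  have hRp : IsPGroup p R := isPGroup_of_le c.isP c.rs
  have hPR := hPn.1
  haveI := finite_of_le (hPR.trans c.rs)
  have hpres : ∀ (b : D'.autGroup P) (x : P), (x : Ω) ∈ T →
      (((b : MulAut P) x : P) : Ω) ∈ T := fun b x hx => stronglyClosed_apply c.closed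
    (hsub _ ((mem_autGroup_iff D' hPR).mp b.2)) x hx
  -- the normal `p`-subgroup
  let K : Subgroup (D'.autGroup P) :=
    { carrier := {b | ∀ x : P, ((x : Ω) ∈ T → (b : MulAut P) x = x) ∧
        (x : Ω)⁻¹ * ((b : MulAut P) x : P) ∈ T}
      one_mem' := fun x => ⟨fun _ => rfl, by simp⟩
      mul_mem' := fun {b b'} hb hb' x => by
        refine ⟨fun hx => ?_, ?_⟩
        · show (b : MulAut P) ((b' : MulAut P) x) = x
          rw [(hb' x).1 hx, (hb x).1 hx]
        · show (x : Ω)⁻¹ * ((b : MulAut P) ((b' : MulAut P) x) : P) ∈ T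
          have := T.mul_mem (hb' x).2 (hb ((b' : MulAut P) x)).2
          simpa [mul_assoc] using this
      inv_mem' := fun {b} hb x => by
        refine ⟨fun hx => ?_, ?_⟩
        · show (b : MulAut P)⁻¹ x = x
          conv_lhs => rw [← (hb x).1 hx]
          rw [MulAut.inv_apply_self]
        · show (x : Ω)⁻¹ * (((b : MulAut P)⁻¹ x : P) : Ω) ∈ T
          have := T.inv_mem (hb ((b : MulAut P)⁻¹ x)).2
          rw [MulAut.apply_inv_self] at this
          simpa using this }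
  haveI hKn : K.Normal := by
    refine ⟨fun k hk b x => ⟨fun hx => ?_, ?_⟩⟩
    · show (b : MulAut P) ((k : MulAut P) ((b : MulAut P)⁻¹ x)) = x
      rw [show (k : MulAut P) ((b : MulAut P)⁻¹ x) = (b : MulAut P)⁻¹ x from
        (hk _).1 (hpres b⁻¹ x hx), MulAut.apply_inv_self]
    · show (x : Ω)⁻¹ * (((b : MulAut P) ((k : MulAut P) ((b : MulAut P)⁻¹ x)) : P) : Ω) ∈ T
      set y := (b : MulAut P)⁻¹ x with hy
      have h1 := hpres b (y⁻¹ * (k : MulAut P) y) (hk y).2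
      rw [map_mul, map_inv] at h1
      rw [show x = (b : MulAut P) y from (MulAut.apply_inv_self P (b : MulAut P) x).symm]
      simpa using h1
  have hKp : IsPGroup p K := by
    intro k
    obtain ⟨i, hi⟩ := IsPGroup.iff_card.mp (isPGroup_of_le hRp hPR)
    refine ⟨i, Subtype.ext (Subtype.ext (MulEquiv.ext fun x => ?_))⟩
    set b := ((k : D'.autGroup P) : MulAut P) with hb
    set z := x⁻¹ * b x with hz
    have hbz : b z = z := (k.2 z).1 (k.2 x).2
    have hit : ∀ n : ℕ, (b ^ n) x = x * z ^ n := by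
      intro n
      induction n with
      | zero => simp
      | succ n ih =>
        rw [pow_succ', MulAut.mul_apply, ih, map_mul, map_pow, hbz,
          show b x = x * z by rw [hz, mul_inv_cancel_left], pow_succ', mul_assoc]
    show (b ^ p ^ i) x = x
    rw [hit, ← hi, pow_card_eq_one', mul_one]
  -- an outer element of `K`
  obtain ⟨k₀, hk₀, hk₀I⟩ : ∃ k₀ : D'.autGroup P, k₀ ∈ K ∧ (k₀ : MulAut P) ∉ Inn P := by
    set U := P ⊓ T with hU
    obtain ⟨U₀, hUU₀, hU₀⟩ := exists_isFullyNormalized D' (inf_le_left.trans hPR : U ≤ R)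
    obtain ⟨η, hη, -, hηU⟩ := exists_hom_normalizerIn_of_fullyNormalized hRp hs hU₀ hUU₀
    have hPN : P ≤ normalizerIn R U := le_normalizer_inf c hPR
    set ηP := η.comp (Subgroup.inclusion hPN) with hηP
    have hηPD : ηP ∈ D'.Hom P := restrict_mem hη hPN
    have hηPF := hsub _ hηPD
    set Q := ηP.range with hQ
    have hQR : Q ≤ R := range_le hηPD
    have hQT : Q ⊓ T = U₀ := by
      rw [← img_inf_T c hηPF, ← hηU]
      exact img_comp_inclusion η hPN inf_le_left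
    have hU₀T : U₀ ≤ T := hQT ▸ inf_le_right
    have hcard : ∀ {V : Subgroup Ω}, E.IsConj U₀ V →
        Nat.card (centralizerIn T V) ≤ Nat.card (centralizerIn T U₀) := by
      intro V hV
      obtain ⟨φ, hφ, hr⟩ := CfsgLib.Alperin.IsConj.symm hV
      obtain ⟨ψ, hψ, hψx⟩ := (receptive_of_fullyNormalized hRp hs hU₀).2 V φ (hE _ hφ) hr
      haveI := finite_of_le (centralizerIn_le T U₀)
      have hle : centralizerIn T V ≤ extender R V φ := fun x hx =>
        sup_centralizerIn_le_extender (hE _ hφ) (Subgroup.mem_sup_right ⟨c.tr hx.1, hx.2⟩)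
      refine card_le_of_maps_to (D'.injective_of_mem hψ) hle
        (centralizerIn_le T U₀) fun x hx => ?_
      refine ⟨stronglyClosed_apply c.closed (hsub _ hψ) x hx.1, fun u hu => ?_⟩
      obtain ⟨v, rfl⟩ := hr.ge hu
      rw [← hψx v v.2 (le_extender (hE _ hφ) v.2), ← map_mul, ← map_mul]
      exact congrArg ψ (Subtype.ext (hx.2 _ v.2))
    have hnc₀ : ¬ centralizerIn T U₀ ≤ U₀ := fun hle => by
      have hU₀c : E.IsCentric U₀ := by
        refine isCentric_of_fullyCentralized c.isPT c.esat ⟨hU₀T, fun V hV => hcard hV⟩ hle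
      obtain ⟨θ, hθ, hθr, -, -⟩ := exists_inverse hηPF hQ.symm
      have h1 := isCentric_inf_of_map c hθ (hQT.symm ▸ hU₀c)
      rw [hθr] at h1
      exact hnc h1
    set A := centralizerIn T U₀ with hA
    have hQA : ∀ x ∈ Q, ∀ a ∈ A, x * a * x⁻¹ ∈ A := fun x hx a ha => by
      refine ⟨c.conj_mem (c.rs (hQR hx)) ha.1, fun u hu => ?_⟩
      have hxN := le_normalizer_inf c hQR hx
      rw [hQT] at hxN
      have hu' : x⁻¹ * u * x ∈ U₀ := by
        have := mem_normalizer_conj (inv_mem hxN.2) hu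
        rwa [inv_inv] at this
      have h1 := ha.2 _ hu'
      calc u * (x * a * x⁻¹) = x * ((x⁻¹ * u * x) * a) * x⁻¹ := by group
        _ = x * (a * (x⁻¹ * u * x)) * x⁻¹ := by rw [h1]
        _ = x * a * x⁻¹ * u := by group
    have hQnA : Q ≤ Subgroup.normalizer (A : Set Ω) := fun x hx =>
      Subgroup.mem_normalizer_iff.mpr fun a => ⟨hQA x hx a, fun h => by
        have := hQA x⁻¹ (Q.inv_mem hx) _ h
        simpa [mul_assoc] using this⟩
    have hlt : Q < A ⊔ Q := by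
      refine lt_of_le_of_ne le_sup_right fun e => hnc₀ fun a ha => hQT.le ⟨?_, ha.1⟩
      exact e.ge (Subgroup.mem_sup_left ha)
    obtain ⟨g, hg, hgN, hgQ⟩ := exists_mem_normalizer_not_mem hRp hlt
      (sup_le ((centralizerIn_le T U₀).trans c.tr) hQR)
    obtain ⟨a, ha, q, hq, rfl⟩ : g ∈ (A : Set Ω) * (Q : Set Ω) := by
      rw [← Subgroup.coe_mul_of_right_le_normalizer_left A Q hQnA]
      exact hg
    have haQ : a ∉ Q := fun h => hgQ (Q.mul_mem h hq)
    have haN : a ∈ Subgroup.normalizer (Q : Set Ω) := by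
      simpa using mul_mem hgN (inv_mem (Subgroup.le_normalizer hq))
    set e := isoOfHom ηP (D'.injective_of_mem hηPD) hQ.symm with he
    have hca : conjAut Q a haN ∈ D'.autGroup Q :=
      autInducedBy_le_autGroup D' hQR (conjAut_mem (c.tr ha.1) haN)
    obtain ⟨k₀, hk₀, hk₀e⟩ := (autGroup_map_congr hηPD hQ.symm).ge hca
    change MulAut.congr e k₀ = conjAut Q a haN at hk₀e
    have hkx : ∀ x : P, ((e (k₀ x) : Q) : Ω) = a * (e x : Q) * a⁻¹ := fun x => by
      rw [← conjAut_apply Q a haN, ← hk₀e, MulAut.congr_apply]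
      simp only [MulEquiv.trans_apply, MulEquiv.symm_apply_apply]
    refine ⟨⟨k₀, hk₀⟩, fun x => ⟨fun hx => ?_, ?_⟩, fun ⟨q₀, hq₀⟩ => ?_⟩
    · refine e.injective (Subtype.ext ?_)
      show ((e (k₀ x) : Q) : Ω) = (e x : Q)
      rw [hkx, ← ha.2 _ (hQT.le ⟨(e x).2, stronglyClosed_apply c.closed hηPF x hx⟩),
        mul_inv_cancel_right]
    · refine mem_of_apply_mem c.closed hηPF (x⁻¹ * k₀ x) ?_
      rw [map_mul, map_inv]
      show (e x : Ω)⁻¹ * (e (k₀ x) : Ω) ∈ T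
      rw [hkx]
      have := T.mul_mem (c.conj_mem' (c.rs (hQR (e x).2)) ha.1) (T.inv_mem ha.1)
      simpa [mul_assoc] using this
    · have hQc : centralizerIn R Q ≤ Q := hPc.2 Q (isConj_of_hom hηPD)
      set q₁ : Q := e q₀ with hq₁
      have hzc : (q₁ : Ω)⁻¹ * a ∈ centralizerIn R Q := by
        refine ⟨R.mul_mem (R.inv_mem (hQR q₁.2)) (c.tr ha.1), fun y hy => ?_⟩
        obtain ⟨x, hx⟩ := e.surjective ⟨y, hy⟩
        have h1 := hkx x
        rw [show k₀ x = q₀ * x * q₀⁻¹ from (DFunLike.congr_fun hq₀ x).symm, map_mul, map_mul,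
          map_inv, hx] at h1
        change (q₁ : Ω) * y * (q₁ : Ω)⁻¹ = a * y * a⁻¹ at h1
        calc y * ((q₁ : Ω)⁻¹ * a) = (q₁ : Ω)⁻¹ * ((q₁ : Ω) * y * (q₁ : Ω)⁻¹) * a := by group
          _ = (q₁ : Ω)⁻¹ * a * y := by rw [h1]; group
      exact haQ (by simpa using Q.mul_mem q₁.2 (hQc hzc))
  -- all of `K` is induced by `R`
  haveI := finite_autGroup D' hPR
  obtain ⟨-, R₀, hR₀⟩ := (centralized_automized_of_fullyNormalized hRp hs hPn).2
  have hKR : ∀ b ∈ K, ∃ g ∈ R, ∀ x : P, (((b : MulAut P) x : P) : Ω) = g * (x : Ω) * g⁻¹ := by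
    intro b hb
    have h1 : b ∈ (R₀ : Subgroup (D'.autGroup P)) := hKp.le_sylow_of_normal R₀ hb
    rw [hR₀] at h1
    exact mem_autInducedBy_iff.mp h1
  obtain ⟨g, hgR, hgx⟩ := hKR k₀ hk₀
  have hgP : g ∉ P := fun hg => hk₀I ⟨⟨g, hg⟩, MulEquiv.ext fun x => Subtype.ext (hgx x).symm⟩
  have hαD := (mem_autGroup_iff D' hPR).mp hα
  set φ := P.subtype.comp α.toMonoidHom with hφ
  have hgext : g ∈ extender R P φ := by
    obtain ⟨r, hr, hrx⟩ := hKR (⟨α, hα⟩ * k₀ * ⟨α, hα⟩⁻¹) (hKn.conj_mem k₀ hk₀ _)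
    refine mem_extender_iff.mpr ⟨hgR, normalizer_of_induced hgx, r, hr, fun x hx => ?_⟩
    have h1 := hrx (α x)
    rw [show (⟨g * (x : Ω) * g⁻¹, hx⟩ : P) = (k₀ : MulAut P) x from Subtype.ext (hgx x).symm]
    refine Eq.trans ?_ h1
    show ((α ((k₀ : MulAut P) x) : P) : Ω) = ((α ((k₀ : MulAut P) (α⁻¹ (α x))) : P) : Ω)
    rw [MulAut.inv_apply_self]
  obtain ⟨ψ, hψ, hψx⟩ := (receptive_of_fullyNormalized hRp hs hPn).2 P φ hαD
    (range_subtype_comp_aut α)
  have hPX : P ≤ extender R P φ := le_extender hαD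
  refine ⟨_, hPX, ψ, hψ, ?_, fun x => hψx x x.2 _⟩
  exact card_lt_card (extender_le P φ) (lt_of_le_of_ne hPX fun e => hgP (e.ge hgext))

/-- A saturated subsystem over `R` in which `E` has `p`-power index lies in the product system. -/
theorem le_dSys_of_pPowerIndex (c : Ctx F E p R) (hs : D'.IsSaturated p)
    (hsub : D'.IsSubsystemOf F) (hE : E.HasPPowerIndexIn D' p) :
    D'.IsSubsystemOf (dSys c) := by
  haveI := c.finT
  haveI : Finite R := finite_of_le c.rs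
  have hRp : IsPGroup p R := isPGroup_of_le c.isP c.rs
  intro P φ hφ
  refine closed_induction_centric (Good := fun P φ => φ ∈ (dSys c).Hom P) hRp hs
    (closed_hom D' _) (fun Q hQn hQc big α hα => ?_) hφ
  have hQR := hQn.1
  haveI := finite_of_le (hQR.trans c.rs)
  by_cases hc : E.IsCentric (Q ⊓ T)
  · refine (mem_autGroup_iff _ hQR).mp ?_
    refine autGroup_le_of_pPrime hRp hs hQn (autInducedBy_le_autGroup (dSys c) hQR)
      (fun b hb hco => ?_) hα
    have hmod : ModT T (Q.subtype.comp b.toMonoidHom) := fun x =>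
      hE.2.1 (mem_hyperfocal D' hQR (mem_map_pResidual_of_coprime D' hb hco) x)
    have hbD := (mem_autGroup_iff D' hQR).mp hb
    haveI := finite_of_le (S := T) (inf_le_right : Q ⊓ T ≤ T)
    obtain ⟨e, he, hex⟩ := exists_aut_of_hom' D'
      (restrict_mem hbD (inf_le_left : Q ⊓ T ≤ Q))
      (fun x => ⟨(b _).2, stronglyClosed_apply c.closed (hsub _ hbD) _ x.2.2⟩)
    have hpow : ∀ (n : ℕ) (x : ↥(Q ⊓ T)),
        (((e ^ n) x : ↥(Q ⊓ T)) : Ω) = ((b ^ n) (Subgroup.inclusion inf_le_left x) : Q) := by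
      intro n
      induction n with
      | zero => intro x; rfl
      | succ n ih =>
        intro x
        rw [pow_succ', pow_succ', MulAut.mul_apply, MulAut.mul_apply, hex]
        exact congrArg (fun v : Q => ((b v : Q) : Ω)) (Subtype.ext (ih x))
    have hec : (orderOf e).Coprime p := hco.coprime_dvd_left (orderOf_dvd_of_pow_eq_one
      (MulEquiv.ext fun x => Subtype.ext (by rw [hpow, pow_orderOf_eq_one]; rfl)))
    exact coprime_mem_dSys c hc inf_le_left le_rfl (le_normalizer_inf c hQR)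
      (autGroup_mono hsub Q hb) hco hmod
      (pPrime_mem_of_hasPPowerIndexIn hE inf_le_right he hec) fun x => (hex x).symm
  · obtain ⟨X, hQX, ψ, hψ, hlt, hψx⟩ :=
      exists_extension_of_noncentric c hs hsub hE.1 hQn hQc hc hα
    exact restrict_mem_apply (big X ψ hψ hlt) hQX fun x => (hψx x).symm

/-- The product system lies in every saturated subsystem over `R` in which `E` has `p`-power
index. -/
theorem dSys_le_of_pPowerIndex (c : Ctx F E p R) (hs : D'.IsSaturated p)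
    (hsub : D'.IsSubsystemOf F) (hE : E.HasPPowerIndexIn D' p) :
    (dSys c).IsSubsystemOf D' := by
  haveI := c.finT
  haveI : Finite R := finite_of_le c.rs
  have hRp : IsPGroup p R := isPGroup_of_le c.isP c.rs
  have hle := le_dSys_of_pPowerIndex c hs hsub hE
  intro P φ hφ
  refine hφ.2 D' fun Q ψ hgen => ?_
  rcases hgen with ⟨hQ, g, hg, rfl⟩ | ⟨W, hW, hgW, l, hWQ, -, hψ⟩
  · exact D'.conj_mem hQ hg
  have hWT := hW.1
  have hWR : W ≤ R := hWT.trans c.tr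
  haveI := finite_of_le hWT
  -- `W` is fully centralized in `D'`
  have hWfc : D'.IsFullyCentralized W := by
    refine ⟨hWR, fun V hV => ?_⟩
    obtain ⟨θ, hθ, hr⟩ := CfsgLib.Alperin.IsConj.symm hV
    have hVT : V ≤ T := fun v hv => mem_of_apply_mem c.closed (hsub _ hθ) ⟨v, hv⟩
      (hWT (hr.le ⟨⟨v, hv⟩, rfl⟩))
    obtain ⟨χ, hχ, -, hχV⟩ := exists_hom_to_good c hVT hgW
      ⟨θ, dSys_le_cSys c _ (hle _ hθ), hr⟩
    haveI := finite_of_le (centralizerIn_le R W)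
    refine card_le_of_maps_to ((dSys c).injective_of_mem hχ)
      (le_inf (centralizerIn_le R V) (inf_le_right.trans (Subgroup.centralizer_le_normalizer _)))
      (centralizerIn_le R W) fun x hx => ⟨((dSys c).le_of_mem hχ).2 x, fun w hw => ?_⟩
    obtain ⟨v, hv, rfl⟩ := hχV.ge hw
    rw [← map_mul, ← map_mul]
    exact congrArg χ (Subtype.ext (hx.2 _ hv))
  obtain ⟨hQN, hψm, g, hg⟩ := hψ
  have hWN : W ≤ normalizerIn R W := le_normalizerIn hWR
  set C := centralizerIn R W with hC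
  have hCN : C ≤ normalizerIn R W :=
    le_inf (centralizerIn_le R W) (inf_le_right.trans (Subgroup.centralizer_le_normalizer _))
  set Q₂ := Q ⊔ C with hQ₂
  have hQ₂N : Q₂ ≤ normalizerIn R W := sup_le hQN hCN
  have hρC : ∀ (m : ↥(normalizerIn R W)), (m : Ω) ∈ C → l.ρ (l.ι m) = 1 := fun m hm =>
    MulEquiv.ext fun x => Subtype.ext (by
      rw [l.rho, ← hm.2 _ x.2, mul_inv_cancel_right]
      rfl)
  have hgex : ∀ x : Q₂, ∃ m, g * l.ι ⟨x, hQ₂N x.2⟩ * g⁻¹ = l.ι m := by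
    intro x
    have hle : Q₂ ≤ (l.ι.range.comap ((MulAut.conj g).toMonoidHom.comp l.ι)).map
        (normalizerIn R W).subtype := by
      refine sup_le (fun q hq => ⟨⟨q, hQN hq⟩, ⟨_, (hg ⟨q, hq⟩).symm⟩, rfl⟩)
        (fun y hy => ⟨⟨y, hCN hy⟩, ?_, rfl⟩)
      obtain ⟨m, hm⟩ := l.ker (g * l.ι ⟨y, hCN hy⟩ * g⁻¹) (by simp [hρC ⟨y, hCN hy⟩ hy])
      exact ⟨m, hm⟩
    obtain ⟨n, ⟨m, hm⟩, hn⟩ := hle x.2
    refine ⟨m, ?_⟩
    rw [show (⟨(x : Ω), hQ₂N x.2⟩ : ↥(normalizerIn R W)) = n from Subtype.ext hn.symm]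
    exact hm.symm
  obtain ⟨φ₂, hφ₂, hφ₂m, hφ₂x⟩ := l.exists_hom_of_conj hQ₂N g hgex
  -- the part on `W`
  obtain ⟨j, hj, m, hgj⟩ := l.decomp g
  have hφW : (W.subtype.comp (l.ρ g).toMonoidHom) ∈ D'.Hom W := by
    refine comp_mem_apply (D'.conj_mem hWR m.2.1) (hE.1 _ ((mem_autGroup_iff E hWT).mp
      (l.rhoJ j hj))) (fun x => mem_normalizer_conj m.2.2 x.2) fun x => ?_
    show ((l.ρ g x : W) : Ω) = ((l.ρ j ⟨(m : Ω) * x * (m : Ω)⁻¹, _⟩ : W) : Ω)
    rw [hgj, map_mul, MulAut.mul_apply]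
    exact congrArg (fun v : W => ((l.ρ j v : W) : Ω)) (Subtype.ext (l.rho m x))
  obtain ⟨ψ₂, hψ₂, hψ₂x⟩ := (receptive_of_fullyCentralized hRp hs hWfc).2 W _ hφW
    (range_subtype_comp_aut (l.ρ g))
  have hWQ₂ : W ≤ Q₂ := hWQ.trans le_sup_left
  have hQ₂X : Q₂ ≤ extender R W (W.subtype.comp (l.ρ g).toMonoidHom) := fun x hx => by
    refine mem_extender_iff.mpr ⟨(hQ₂N hx).1, (hQ₂N hx).2, φ₂ ⟨x, hx⟩, (hφ₂m _).1, fun w hw => ?_⟩
    show ((l.ρ g ⟨x * (w : Ω) * x⁻¹, hw⟩ : W) : Ω) =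
      φ₂ ⟨x, hx⟩ * ((l.ρ g w : W) : Ω) * (φ₂ ⟨x, hx⟩)⁻¹
    rw [← l.apply_eq_rho hQ₂N hWN hφ₂x ⟨w, hWQ₂ w.2⟩ w.2,
      ← l.apply_eq_rho hQ₂N hWN hφ₂x ⟨x * (w : Ω) * x⁻¹, hWQ₂ hw⟩ hw, ← map_inv, ← map_mul,
      ← map_mul]
    rfl
  set ψ₃ := ψ₂.comp (Subgroup.inclusion hQ₂X) with hψ₃
  have hψ₃D' : ψ₃ ∈ D'.Hom Q₂ := restrict_mem hψ₂ hQ₂X
  have hψ₃W : ∀ x : Q₂, ∀ hx : (x : Ω) ∈ W, ψ₃ x = ((l.ρ g ⟨x, hx⟩ : W) : Ω) := fun x hx =>
    hψ₂x x hx _
  have hψ₃l : ψ₃ ∈ l.sys.Hom Q₂ := by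
    refine mem_locSys c hW hgW l hWQ₂ hQ₂N (hle _ hψ₃D') ?_
    refine Subgroup.eq_of_le_of_card_ge ?_ (card_img hψ₃D' hWQ₂).ge
    rintro _ ⟨x, hx, rfl⟩
    rw [hψ₃W x hx]
    exact (l.ρ g _).2
  obtain ⟨_, hψ₃m, g', hg'⟩ := hψ₃l
  have hρ : l.ρ g' = l.ρ g := MulEquiv.ext fun w => Subtype.ext (by
    rw [← hψ₃W ⟨w, hWQ₂ w.2⟩ w.2]
    exact (l.apply_eq_rho hQ₂N hWN hg' ⟨w, hWQ₂ w.2⟩ w.2).symm)
  obtain ⟨n, hn⟩ := l.ker (g'⁻¹ * g) (by rw [map_mul, map_inv, hρ, inv_mul_cancel])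
  have hnC : (n : Ω) ∈ C := by
    refine ⟨n.2.1, fun w hw => ?_⟩
    have h1 := l.rho n ⟨w, hw⟩
    rw [show l.ρ (l.ι n) = 1 by rw [hn, map_mul, map_inv, hρ, inv_mul_cancel]] at h1
    exact (mul_inv_eq_iff_eq_mul.mp h1.symm).symm
  have hnQ : ∀ x : Q, (n : Ω) * (x : Ω) * (n : Ω)⁻¹ ∈ Q₂ := fun x =>
    Q₂.mul_mem (Q₂.mul_mem (Subgroup.mem_sup_right hnC) (Subgroup.mem_sup_left x.2))
      (Q₂.inv_mem (Subgroup.mem_sup_right hnC))
  refine comp_mem_apply (D'.conj_mem (hQN.trans (normalizerIn_le R W)) n.2.1) hψ₃D' hnQ fun x => ?_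
  refine congrArg (fun v : ↥(normalizerIn R W) => (v : Ω)) (l.inj (a₁ := ⟨ψ x, hψm x⟩)
    (a₂ := ⟨ψ₃ ⟨_, hnQ x⟩, hψ₃m _⟩) ?_)
  rw [← hg x, ← hg' ⟨_, hnQ x⟩]
  show g * l.ι ⟨x, hQN x.2⟩ * g⁻¹ = g' * l.ι (n * ⟨x, hQN x.2⟩ * n⁻¹) * g'⁻¹
  rw [map_mul, map_mul, map_inv, hn]
  group

/-- The product system is the only saturated system over `R` in which `E` has `p`-power index. -/
theorem eq_dSys (c : Ctx F E p R) (hs : D'.IsSaturated p) (hsub : D'.IsSubsystemOf F)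
    (hE : E.HasPPowerIndexIn D' p) : D' = dSys c :=
  system_eq_of_subsystem (le_dSys_of_pPowerIndex c hs hsub hE)
    (dSys_le_of_pPowerIndex c hs hsub hE)

end CfsgLib.FusionProduct
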